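import Cfsg.Agent.H714.S4547.Coset
import Cfsg.Agent.Blocks.PrincipalSection
import Cfsg.Agent.S0925

/-!
# S4547: the upper bound for the number of the fixed characters of odd degree of the principal 2-block (helper714)

`D` a 2-subgroup of the finite group `G`, `x : D`, such that the centralizers of the elements `z` of the coset
`x * Sq D` have normal 2-complements. If for every such `z` the number of the elements of the coset which are
conjugate to `z`, times `|C_G(z)|_2`, is at most `N * |Sq D|`, then the principal 2-block has at most `N` members of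
odd degree fixed by the cubing automorphism (`card_le`).

Special case: `D` cyclic generated by `x` (`card_le_cyclic`).
-/

set_option autoImplicit false

open scoped ComplexConjugate
open Cfsg Cfsg.Agent.Characters.Core Cfsg.Agent.H618.Sigma

namespace Cfsg.Agent.H714.S4547

universe u

variable {G : Type u} [Group G] {k : ℕ}

/-- the number of the fixed members of odd degree of the principal 2-block, as in the statements -/
noncomputable def fnum (M : Ideal AlgInt) (k : ℕ) (G : Type u) [Group G] : ℕ :=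
  Nat.card {χ : IrrCharacter G // χ ∈ principalBlock M G ∧ Odd (charDegree (χ : G → ℂ)) ∧
    ∀ g : G, (χ : G → ℂ) (g ^ k) = (χ : G → ℂ) g}

/-- the elements of the coset -/
def cz {D : Subgroup G} (x : D) (a : Sq D) : G := ((x * a : D) : G)

/-- **The upper bound.** -/
theorem card_le [Finite G] {M : Ideal AlgInt} (hM : IsPModular 2 M) (hk : Cube G k) (D : Subgroup G)
    (hD : IsPGroup 2 D) (x : D) (N : ℕ)
    (hnc : ∀ a : Sq D, ∃ j : ℕ, (pPrimeCore 2 (Subgroup.centralizer ({cz x a} : Set G))).index = 2 ^ j)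
    (hN : ∀ a : Sq D, Nat.card {b : Sq D // IsConj (cz x a) (cz x b)} *
      2 ^ (Nat.card (Subgroup.centralizer ({cz x a} : Set G))).factorization 2 ≤ N * Nat.card (Sq D)) :
    fnum M k G ≤ N := by
  classical
  have hfact : Fact (Nat.Prime 2) := ⟨Nat.prime_two⟩
  have := Fintype.ofFinite G
  have hfin : Finite (IrrCharacter G) := finite_irr
  have := Fintype.ofFinite (IrrCharacter G)
  have := Fintype.ofFinite (Sq D)
  have hMp := Cfsg.Agent.Blocks.Local.isPrime_of_isPModular hM
  let B : Finset (IrrCharacter G) := Finset.univ.filter fun χ => χ ∈ principalBlock M G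
  have hB : ∀ χ, χ ∈ B ↔ χ ∈ principalBlock M G := fun χ => by simp [B]
  have hfs : ∀ f : IrrCharacter G → ℂ, ∑ᶠ χ ∈ principalBlock M G, f χ = ∑ χ ∈ B, f χ := by
    intro f
    rw [finsum_mem_eq_toFinset_sum]
    refine Finset.sum_congr ?_ fun _ _ => rfl
    ext χ
    rw [Set.mem_toFinset, hB]
  have hord : ∀ a : Sq D, ∃ j : ℕ, orderOf (cz x a) = 2 ^ j := by
    intro a
    obtain ⟨j, hj⟩ := IsPGroup.iff_orderOf.1 hD (x * a)
    exact ⟨j, by rw [← hj]; exact Subgroup.orderOf_coe (x * a : D)⟩
  -- the orthogonality relations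
  have horth : ∀ a b : Sq D, ∑ χ ∈ B, (χ : G → ℂ) (cz x a) * conj ((χ : G → ℂ) (cz x b)) =
      if IsConj (cz x a) (cz x b) then
        ((2 ^ (Nat.card (Subgroup.centralizer ({cz x a} : Set G))).factorization 2 : ℕ) : ℂ) else 0 := by
    intro a b
    split_ifs with h
    · obtain ⟨g, hg⟩ := isConj_iff.1 h
      have h1 : ∀ χ : IrrCharacter G, (χ : G → ℂ) (cz x b) = (χ : G → ℂ) (cz x a) := by
        intro χ
        rw [← hg]
        exact isIrr_isClassFunction χ.2 _ g
      rw [Finset.sum_congr rfl fun χ _ => by rw [h1 χ]]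
      have h2 := Cfsg.Agent.Blocks.PrincipalSection.sum_principalBlock_section hM (cz x a) (hord a) rfl 1 1
        (by rw [orderOf_one]; norm_num) (by rw [orderOf_one]; norm_num)
      rw [Cfsg.Agent.Blocks.PrincipalSection.sum_principalBlock_of_pComplement hM (hnc a)
        (by rw [orderOf_one]; norm_num) (by rw [orderOf_one]; norm_num), hfs] at h2
      simpa using h2
    · have h1 := (Cfsg.Agent.S0925.result 2 M hM (G := G)).2 (cz x a) (cz x b) (cz x a) (cz x b)
        (Cfsg.Agent.Blocks.PPart.isPPart_of_isPGroup (hord a)) (Cfsg.Agent.Blocks.PPart.isPPart_of_isPGroup (hord b))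
        h (principalBlock M G) (isPBlock_principal M)
      rw [hfs] at h1
      rw [← h1]
      refine Finset.sum_congr rfl fun χ _ => ?_
      rw [isCharacter_apply_inv (isIrr_isCharacter χ.2)]
  -- the sums over the coset
  let T : IrrCharacter G → ℂ := fun χ => ∑ a : Sq D, (χ : G → ℂ) (cz x a)
  have htot : ∑ χ ∈ B, T χ * conj (T χ) = ∑ a : Sq D, ∑ b : Sq D, (if IsConj (cz x a) (cz x b) then
        ((2 ^ (Nat.card (Subgroup.centralizer ({cz x a} : Set G))).factorization 2 : ℕ) : ℂ) else 0) := by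
    calc ∑ χ ∈ B, T χ * conj (T χ) = ∑ χ ∈ B, ∑ a : Sq D, ∑ b : Sq D,
          (χ : G → ℂ) (cz x a) * conj ((χ : G → ℂ) (cz x b)) := by
          refine Finset.sum_congr rfl fun χ _ => ?_
          rw [map_sum, Finset.sum_mul]
          refine Finset.sum_congr rfl fun a _ => ?_
          rw [Finset.mul_sum]
      _ = ∑ a : Sq D, ∑ χ ∈ B, ∑ b : Sq D, (χ : G → ℂ) (cz x a) * conj ((χ : G → ℂ) (cz x b)) := Finset.sum_comm
      _ = _ := by
          refine Finset.sum_congr rfl fun a _ => ?_
          rw [Finset.sum_comm]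
          exact Finset.sum_congr rfl fun b _ => horth a b
  have htot2 : ∑ χ ∈ B, Complex.normSq (T χ) = ((∑ a : Sq D, Nat.card {b : Sq D // IsConj (cz x a) (cz x b)} *
      2 ^ (Nat.card (Subgroup.centralizer ({cz x a} : Set G))).factorization 2 : ℕ) : ℝ) := by
    have h1 : ((∑ χ ∈ B, Complex.normSq (T χ) : ℝ) : ℂ) = ((((∑ a : Sq D,
        Nat.card {b : Sq D // IsConj (cz x a) (cz x b)} *
        2 ^ (Nat.card (Subgroup.centralizer ({cz x a} : Set G))).factorization 2 : ℕ) : ℝ)) : ℂ) := by
      rw [Complex.ofReal_sum, Finset.sum_congr rfl fun χ _ => (Complex.mul_conj (T χ)).symm, htot]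
      push_cast
      refine Finset.sum_congr rfl fun a _ => ?_
      rw [← Finset.sum_filter, Finset.sum_const, nsmul_eq_mul]
      congr 2
      rw [Nat.card_eq_fintype_card, Fintype.card_subtype]
    exact_mod_cast h1
  -- the bound from above
  have hup : ∑ χ ∈ B, Complex.normSq (T χ) ≤ (N : ℝ) * (Nat.card (Sq D) : ℝ) ^ 2 := by
    rw [htot2]
    have h1 : ∑ a : Sq D, Nat.card {b : Sq D // IsConj (cz x a) (cz x b)} *
        2 ^ (Nat.card (Subgroup.centralizer ({cz x a} : Set G))).factorization 2 ≤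
        ∑ _a : Sq D, N * Nat.card (Sq D) := Finset.sum_le_sum fun a _ => hN a
    rw [Finset.sum_const, smul_eq_mul, Finset.card_univ, Fintype.card_eq_nat_card] at h1
    have h2 : ((∑ a : Sq D, Nat.card {b : Sq D // IsConj (cz x a) (cz x b)} *
        2 ^ (Nat.card (Subgroup.centralizer ({cz x a} : Set G))).factorization 2 : ℕ) : ℝ) ≤
        ((Nat.card (Sq D) * (N * Nat.card (Sq D)) : ℕ) : ℝ) := by exact_mod_cast h1
    refine h2.trans (le_of_eq ?_)
    push_cast
    ring
  -- the bound from below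
  let O : Finset (IrrCharacter G) := B.filter fun χ => Odd (charDegree (χ : G → ℂ)) ∧
    ∀ g : G, (χ : G → ℂ) (g ^ k) = (χ : G → ℂ) g
  have hO : fnum M k G = O.card := by
    rw [fnum, Nat.card_eq_fintype_card, Fintype.card_subtype]
    congr 1
    ext χ
    simp only [O, B, Finset.mem_filter, Finset.mem_univ, true_and]
  have hlow : ∀ χ ∈ O, (Nat.card (Sq D) : ℝ) ^ 2 ≤ Complex.normSq (T χ) := by
    intro χ hχ
    obtain ⟨-, hodd, hfix⟩ := Finset.mem_filter.1 hχ
    obtain ⟨a, ha, hsum⟩ := sum_coset_odd hD (hk.subgroup D)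
      (θ := fun g : D => (χ : G → ℂ) g) (isCharacter_comp D.subtype (isIrr_isCharacter χ.2))
      (fun g => hfix g) (d := charDegree (χ : G → ℂ))
      (by
        show (χ : G → ℂ) ((1 : D) : G) = _
        rw [Subgroup.coe_one, Cfsg.Agent.Blocks.Basic.irr_one_eq_charDegree χ.2]) hodd x
    have h1 : T χ = (Nat.card (Sq D) : ℂ) * a := hsum
    rw [h1, map_mul, Complex.normSq_natCast, Complex.normSq_intCast, ← sq]
    have h2 : (1 : ℝ) ≤ (a : ℝ) * a := by
      have h3 : a ≠ 0 := by
        rintro rfl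
        exact absurd ha (by decide)
      have h4 : (1 : ℤ) ≤ a * a := by
        have := mul_self_pos.2 h3
        omega
      exact_mod_cast h4
    nlinarith [sq_nonneg (Nat.card (Sq D) : ℝ)]
  have h1 : (O.card : ℝ) * (Nat.card (Sq D) : ℝ) ^ 2 ≤ (N : ℝ) * (Nat.card (Sq D) : ℝ) ^ 2 := by
    calc (O.card : ℝ) * (Nat.card (Sq D) : ℝ) ^ 2 = ∑ _χ ∈ O, (Nat.card (Sq D) : ℝ) ^ 2 := by
          rw [Finset.sum_const, nsmul_eq_mul]
      _ ≤ ∑ χ ∈ O, Complex.normSq (T χ) := Finset.sum_le_sum hlow
      _ ≤ ∑ χ ∈ B, Complex.normSq (T χ) :=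
          Finset.sum_le_sum_of_subset_of_nonneg (Finset.filter_subset _ _) fun _ _ _ => Complex.normSq_nonneg _
      _ ≤ _ := hup
  have hpos : (0 : ℝ) < (Nat.card (Sq D) : ℝ) ^ 2 := by
    have : 0 < Nat.card (Sq D) := Nat.card_pos
    positivity
  have h2 := le_of_mul_le_mul_right h1 hpos
  rw [hO]
  exact_mod_cast h2

end Cfsg.Agent.H714.S4547
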